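import Cfsg.Agent.Lib.PGroup.Basic

/-! A Camina group of odd order whose abelianization is inverted by an involutory automorphism has class
at most two. -/

set_option autoImplicit false

namespace Cfsg.Lib.Cam

open Subgroup
open scoped commutatorElement IsMulCommutative

open scoped Classical in
theorem sum_hom {C : Type*} [Group C] [Fintype C] (f : C →* ℂˣ) :
    ∑ c, (f c : ℂ) = if f = 1 then (Nat.card C : ℂ) else 0 := by
  split_ifs with h
  · simp [h]
  · refine sum_hom_units_eq_zero ((Units.coeHom ℂ).comp f) fun h' => h ?_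
    ext c
    simpa using DFunLike.congr_fun h' c

theorem card_ker_flip {A B : Type*} [Group A] [Group B] [Finite A] [Finite B] (β : A →* B →* ℂˣ) :
    Nat.card B * Nat.card β.ker = Nat.card A * Nat.card β.flip.ker := by
  classical
  have := Fintype.ofFinite A
  have := Fintype.ofFinite B
  have h1 : ∑ a, ∑ b, (β a b : ℂ) = Nat.card B * Nat.card β.ker := by
    simp only [sum_hom]
    rw [← Finset.sum_filter, Finset.sum_const, nsmul_eq_mul, mul_comm, Nat.card_eq_fintype_card (α := β.ker),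
      Fintype.card_subtype]
    simp only [MonoidHom.mem_ker]
  have h2 : ∑ b, ∑ a, (β.flip b a : ℂ) = Nat.card A * Nat.card β.flip.ker := by
    simp only [sum_hom]
    rw [← Finset.sum_filter, Finset.sum_const, nsmul_eq_mul, mul_comm,
      Nat.card_eq_fintype_card (α := β.flip.ker), Fintype.card_subtype]
    simp only [MonoidHom.mem_ker]
  rw [Finset.sum_comm] at h1
  exact_mod_cast h1.symm.trans h2

/-- Camina group of odd order with an involutory endomorphism inverting the abelianization. -/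
structure Hy (P : Type*) [Group P] (τ : P →* P) : Prop where
  odd : Odd (Nat.card P)
  tt : ∀ x, τ (τ x) = x
  inv : ∀ x, x * τ x ∈ _root_.commutator P
  cam : ∀ x, x ∉ _root_.commutator P → ∀ u ∈ _root_.commutator P, ∃ h, h * x * h⁻¹ = u * x

variable {P : Type*} [Group P] [Finite P] {τ : P →* P}

theorem eq_one_of_sq (ho : Odd (Nat.card P)) {x : P} (h : x * x = 1) : x = 1 := by
  obtain ⟨k, hk⟩ := ho
  have := pow_card_eq_one' (x := x)
  rwa [hk, pow_succ, pow_mul, pow_two, h, one_pow, one_mul] at this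

theorem Hy.rep (h : Hy P τ) (w : P) : ∃ w₀, τ w₀ = w₀⁻¹ ∧ w₀⁻¹ * w ∈ _root_.commutator P := by
  obtain ⟨k, hk⟩ := h.odd
  refine ⟨(w * (τ w)⁻¹) ^ (k + 1), ?_, ?_⟩
  · rw [map_pow, map_mul, map_inv, h.tt, ← inv_pow, mul_inv_rev, inv_inv]
  · have h1 := h.inv w
    rw [← Abelianization.ker_of, MonoidHom.mem_ker] at h1 ⊢
    rw [map_mul] at h1
    have h2 : Abelianization.of w ^ (2 * k + 1) = 1 := by rw [← map_pow, ← hk, pow_card_eq_one', map_one]
    rw [map_mul, map_inv, map_pow, map_mul, map_inv, ← eq_inv_of_mul_eq_one_left h1, ← pow_two, ← pow_mul,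
      show 2 * (k + 1) = 2 * k + 1 + 1 by ring, pow_succ, h2, one_mul, inv_mul_cancel]

omit [Finite P] in
theorem map_comm {Q : Type*} [Group Q] (f : P →* Q) (hf : Function.Surjective f) :
    (_root_.commutator P).map f = _root_.commutator Q := by
  rw [map_commutator_eq, MonoidHom.range_eq_top.2 hf, commutator_def]

theorem Hy.map (h : Hy P τ) {Q : Type*} [Group Q] (f : P →* Q) (hf : Function.Surjective f) (σ : Q →* Q)
    (hσ : ∀ x, σ (f x) = f (τ x)) : Hy Q σ where
  odd := h.odd.of_dvd_nat (card_dvd_of_surjective f hf)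
  tt x := by
    obtain ⟨x, rfl⟩ := hf x
    rw [hσ, hσ, h.tt]
  inv x := by
    obtain ⟨x, rfl⟩ := hf x
    rw [hσ, ← map_mul, ← map_comm f hf]
    exact mem_map_of_mem f (h.inv x)
  cam x hx u hu := by
    obtain ⟨x, rfl⟩ := hf x
    rw [← map_comm f hf] at hx hu
    obtain ⟨u, hu, rfl⟩ := hu
    obtain ⟨g, hg⟩ := h.cam x (fun hx' => hx (mem_map_of_mem f hx')) u hu
    exact ⟨f g, by rw [← map_inv, ← map_mul, ← map_mul, hg, map_mul]⟩

/-- `τ` fixes the derived group modulo `γ₃`. -/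
theorem Hy.fix (h : Hy P τ) (hne : _root_.commutator P ≠ ⊤) {u : P} (hu : u ∈ _root_.commutator P) :
    u⁻¹ * τ u ∈ ⁅_root_.commutator P, (⊤ : Subgroup P)⁆ := by
  obtain ⟨x₁, hx₁⟩ : ∃ x, x ∉ _root_.commutator P := by
    by_contra hc
    push Not at hc
    exact hne (eq_top_iff.2 fun x _ => hc x)
  obtain ⟨x, hx, hxx⟩ := h.rep x₁
  have hxD : x ∉ _root_.commutator P := fun hx' => hx₁ (by simpa using mul_mem hx' hxx)
  obtain ⟨g, hg⟩ := h.cam x hxD u hu
  obtain ⟨g₀, hg₀, hgg⟩ := h.rep g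
  set Z := ⁅_root_.commutator P, (⊤ : Subgroup P)⁆
  have hc : ∀ d ∈ _root_.commutator P, ∀ w : P, QuotientGroup.mk' Z d * QuotientGroup.mk' Z w =
      QuotientGroup.mk' Z w * QuotientGroup.mk' Z d := by
    intro d hd w
    rw [← commutatorElement_eq_one_iff_mul_comm, ← map_commutatorElement, ← MonoidHom.mem_ker,
      QuotientGroup.ker_mk']
    exact commutator_mem_commutator hd (mem_top w)
  rw [← QuotientGroup.ker_mk' Z, MonoidHom.mem_ker]
  set f := QuotientGroup.mk' Z
  obtain ⟨d, hd, rfl⟩ : ∃ d ∈ _root_.commutator P, g = g₀ * d := ⟨_, hgg, by group⟩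
  have hτd : τ d ∈ _root_.commutator P := by simpa using mul_mem (inv_mem hd) (h.inv d)
  have e1 : u = g₀ * d * x * (g₀ * d)⁻¹ * x⁻¹ := by rw [hg]; group
  have e2 : f u = f g₀ * f x * (f g₀)⁻¹ * (f x)⁻¹ := by
    rw [e1]
    simp only [map_mul, map_inv]
    calc _ = f g₀ * (f d * f x) * (f d)⁻¹ * (f g₀)⁻¹ * (f x)⁻¹ := by group
      _ = _ := by rw [hc d hd x]; group
  have e3 : f (τ u) = (f g₀)⁻¹ * (f x)⁻¹ * f g₀ * f x := by
    rw [e1]
    simp only [map_mul, map_inv, hx, hg₀]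
    calc _ = (f g₀)⁻¹ * (f (τ d) * f x⁻¹) * (f (τ d))⁻¹ * f g₀ * f x := by rw [map_inv]; group
      _ = _ := by rw [hc _ hτd x⁻¹, map_inv]; group
  have e4 := hc u hu (x * g₀)
  rw [map_mul f x] at e4
  have e5 : (f g₀)⁻¹ * (f x)⁻¹ * f g₀ * f x = (f x * f g₀)⁻¹ * (f u * (f x * f g₀)) := by rw [e2]; group
  rw [map_mul, map_inv, e3, e5, e4]
  group

theorem Hy.c3 (h : Hy P τ) (hne : _root_.commutator P ≠ ⊤)
    (hZ : ⁅⁅_root_.commutator P, (⊤ : Subgroup P)⁆, (⊤ : Subgroup P)⁆ = ⊥) :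
    ⁅_root_.commutator P, (⊤ : Subgroup P)⁆ = ⊥ := by
  set D := _root_.commutator P with hD
  set Z := ⁅D, (⊤ : Subgroup P)⁆ with hZ'
  have hZc : Z ≤ center P := by
    rw [commutator_eq_bot_iff_le_centralizer, coe_top, centralizer_univ] at hZ
    exact hZ
  have hZD : Z ≤ D := commutator_le_left _ _
  have hm : ∀ u ∈ D, ∀ w : P, ⁅u, w⁆ ∈ Z := fun u hu w => commutator_mem_commutator hu (mem_top w)
  have cj : ∀ z ∈ Z, ∀ w : P, w * z * w⁻¹ = z := fun z hz w => by
    rw [mem_center_iff.1 (hZc hz) w, mul_inv_cancel_right]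
  have m2 : ∀ u ∈ D, ∀ w w' : P, ⁅u, w * w'⁆ = ⁅u, w⁆ * ⁅u, w'⁆ := fun u hu w w' => by
    rw [← cj _ (hm u hu w') w]
    simp only [commutatorElement_def]
    group
  have m1 : ∀ u ∈ D, ∀ u' ∈ D, ∀ w : P, ⁅u * u', w⁆ = ⁅u, w⁆ * ⁅u', w⁆ := fun u hu u' hu' w => by
    rw [mem_center_iff.1 (hZc (hm u' hu' w)) _ |>.trans rfl, ← cj _ (hm u' hu' w) u]
    simp only [commutatorElement_def]
    group
  let c : D →* P →* center P := MonoidHom.mk' (fun u => MonoidHom.mk' (fun w => ⟨⁅(u : P), w⁆, hZc (hm u u.2 w)⟩)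
    fun w w' => Subtype.ext (m2 u u.2 w w')) fun u u' => by
      ext w
      exact m1 u u.2 u' u'.2 w
  have hc : ∀ (u : D) (w : P), (c u w : P) = ⁅(u : P), w⁆ := fun _ _ => rfl
  -- `D` is abelian
  have hab : ∀ u ∈ D, ∀ w ∈ D, ⁅u, w⁆ = 1 := fun u hu w hw => by
    have : w ∈ (c ⟨u, hu⟩).ker := Abelianization.commutator_subset_ker _ hw
    exact congrArg Subtype.val this
  have hcen : ∀ z ∈ Z, ∀ w : P, ⁅z, w⁆ = 1 := fun z hz w =>
    commutatorElement_eq_one_iff_mul_comm.2 (mem_center_iff.1 (hZc hz) w).symm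
  have hτD : ∀ d ∈ D, τ d ∈ D := fun d hd => by simpa using mul_mem (inv_mem hd) (h.inv d)
  -- `τ` inverts `Z`
  have hinv : ∀ z ∈ Z, τ z = z⁻¹ := by
    intro z hz
    refine closure_induction (p := fun z hz => τ z = z⁻¹) ?_ (by simp) ?_ ?_ hz
    · rintro _ ⟨u, hu, w, -, rfl⟩
      have e1 : τ u = u * (u⁻¹ * τ u) := by group
      have e2 : τ w = w⁻¹ * (w * τ w) := by group
      rw [map_commutatorElement, e1, m1 u hu _ (hZD (h.fix hne hu)), hcen _ (h.fix hne hu), mul_one, e2,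
        m2 u hu, hab u hu _ (h.inv w), mul_one]
      refine eq_inv_of_mul_eq_one_left ?_
      rw [← m2 u hu, inv_mul_cancel, commutatorElement_one_right]
    · intro x y hx hy e1 e2
      rw [map_mul, e1, e2, mul_inv_rev]
      exact mem_center_iff.1 (inv_mem (hZc hy)) _
    · intro x _ e
      rw [map_inv, e]
  -- `[D, x] = Z` for `x ∉ D`
  have honto : ∀ x, x ∉ D → ∀ z ∈ Z, ∃ u ∈ D, ⁅u, x⁆ = z := by
    intro x₁ hx₁ z hz
    obtain ⟨x, hx, hxx⟩ := h.rep x₁
    have hxD : x ∉ D := fun hx' => hx₁ (by simpa using mul_mem hx' hxx)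
    obtain ⟨g, hg⟩ := h.cam x hxD z (hZD hz)
    obtain ⟨g₀, hg₀, hgg⟩ := h.rep g
    obtain ⟨d, hd, rfl⟩ : ∃ d ∈ D, g = g₀ * d := ⟨_, hgg, by group⟩
    have e1 : z = ⁅d, x⁆ * ⁅g₀, x⁆ := by
      rw [← cj _ (hm d hd x) g₀, show z = g₀ * d * x * (g₀ * d)⁻¹ * x⁻¹ by rw [hg]; group]
      simp only [commutatorElement_def]
      group
    have e2 : ⁅g₀, x⁆ ∈ Z := by
      have := mul_mem (inv_mem (hm d hd x)) hz
      rwa [e1, inv_mul_cancel_left] at this
    have e3 : τ ⁅g₀, x⁆ = ⁅g₀, x⁆ := by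
      rw [map_commutatorElement, hx, hg₀]
      conv_rhs => rw [← cj _ e2 (x * g₀)⁻¹]
      simp only [commutatorElement_def]
      group
    have e4 : ⁅g₀, x⁆ = 1 := eq_one_of_sq h.odd (by
      rw [hinv _ e2] at e3
      nth_rewrite 1 [← e3]
      exact inv_mul_cancel _)
    refine ⟨d, hd, ?_⟩
    rw [e1, e4, mul_one, show x₁ = x * (x⁻¹ * x₁) by group, m2 d hd, hab d hd _ hxx, mul_one]
  by_contra hZ1
  obtain ⟨⟨z, hz⟩, hz1⟩ := (Subgroup.ne_bot_iff_exists_ne_one).1 hZ1
  have hz2 : (⟨z, hZc hz⟩ : center P) ≠ 1 := fun e =>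
    hz1 (Subtype.ext (show z = 1 from congrArg Subtype.val e))
  have : NeZero ((Monoid.exponent (center P) : ℕ) : ℂ) := ⟨Nat.cast_ne_zero.2 Monoid.exponent_ne_zero_of_finite⟩
  obtain ⟨μ, hμ⟩ := CommGroup.exists_apply_ne_one_of_hasEnoughRootsOfUnity (center P) ℂ hz2
  let β : D →* P →* ℂˣ := (MonoidHom.compHom μ).comp c
  have hβ : ∀ u w, β u w = μ (c u w) := fun _ _ => rfl
  have h1 := card_ker_flip β
  have h2 : Nat.card Z ≤ Nat.card β.ker := by
    rw [← Nat.card_congr (subgroupOfEquivOfLe hZD).toEquiv]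
    refine card_le_of_le fun u hu => ?_
    rw [MonoidHom.mem_ker]
    ext w
    have : c u w = 1 := Subtype.ext (hcen _ hu w)
    rw [hβ, this, map_one]
    rfl
  have h3 : Nat.card β.flip.ker ≤ Nat.card D := by
    refine card_le_of_le fun w hw => ?_
    by_contra hw'
    obtain ⟨u, hu, e⟩ := honto w hw' z hz
    have e1 : β ⟨u, hu⟩ w = 1 := DFunLike.congr_fun (MonoidHom.mem_ker.1 hw) ⟨u, hu⟩
    rw [hβ, show c ⟨u, hu⟩ w = ⟨z, hZc hz⟩ from Subtype.ext e] at e1
    exact hμ e1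
  obtain ⟨x, hx⟩ : ∃ x, x ∉ D := by
    by_contra hc
    push Not at hc
    exact hne (eq_top_iff.2 fun x _ => hc x)
  -- the class of `x` contains `D x`
  have h4 : Nat.card D ≤ (centralizer ({x} : Set P)).index := by
    choose g hg using h.cam x hx
    refine Nat.card_le_card_of_injective (fun u : D => ((g u u.2 : P) : P ⧸ centralizer ({x} : Set P))) ?_
    intro u u' e
    have e1 := mem_centralizer_singleton_iff.1 (QuotientGroup.eq.1 e)
    have e2 : g u u.2 * x * (g u u.2)⁻¹ = g u' u'.2 * x * (g u' u'.2)⁻¹ := by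
      calc _ = g u u.2 * (x * ((g u u.2)⁻¹ * g u' u'.2)) * (g u' u'.2)⁻¹ := by group
        _ = _ := by rw [← e1]; group
    rw [hg, hg] at e2
    exact Subtype.ext (mul_right_cancel e2)
  have h5 : Nat.card D ≤ Nat.card (c.flip x).ker * Nat.card Z := by
    rw [← card_mul_index (c.flip x).ker, index_ker]
    refine Nat.mul_le_mul_left _ ?_
    refine Nat.card_le_card_of_injective (fun y : (c.flip x).range => (⟨(y : center P), ?_⟩ : Z)) ?_
    · obtain ⟨_, u, rfl⟩ := y
      exact hm u u.2 x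
    · intro y y' e
      have e' := congrArg Subtype.val e
      exact Subtype.ext (Subtype.ext e')
  have h6 : Nat.card (c.flip x).ker < Nat.card (centralizer ({x} : Set P)) := by
    rw [← card_map_of_injective (K := (c.flip x).ker) D.subtype_injective]
    refine Nat.lt_of_le_of_ne (card_le_of_le ?_) fun e => hx ?_
    · rintro _ ⟨u, hu, rfl⟩
      exact mem_centralizer_singleton_iff.2
        (commutatorElement_eq_one_iff_mul_comm.1 (congrArg Subtype.val (MonoidHom.mem_ker.1 hu)))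
    · have e' := eq_of_le_of_card_ge (H := ((c.flip x).ker).map D.subtype) (K := centralizer ({x} : Set P)) (by
        rintro _ ⟨u, hu, rfl⟩
        exact mem_centralizer_singleton_iff.2
          (commutatorElement_eq_one_iff_mul_comm.1 (congrArg Subtype.val (MonoidHom.mem_ker.1 hu)))) e.ge
      have : x ∈ ((c.flip x).ker).map D.subtype := e' ▸ mem_centralizer_singleton_iff.2 rfl
      obtain ⟨u, -, rfl⟩ := this
      exact u.2
  have h7 := card_mul_index (centralizer ({x} : Set P))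
  have h8 : 0 < Nat.card D := Nat.card_pos
  have h9 : 0 < Nat.card Z := Nat.card_pos
  have a1 : Nat.card P * Nat.card Z ≤ Nat.card D * Nat.card D :=
    (Nat.mul_le_mul_left _ h2).trans (h1.le.trans (Nat.mul_le_mul_left _ h3))
  have a2 : Nat.card D * Nat.card D < Nat.card P * Nat.card Z := by
    calc _ ≤ Nat.card D * (Nat.card (c.flip x).ker * Nat.card Z) := Nat.mul_le_mul_left _ h5
      _ < Nat.card D * (Nat.card (centralizer ({x} : Set P)) * Nat.card Z) :=
        Nat.mul_lt_mul_of_pos_left (Nat.mul_lt_mul_of_pos_right h6 h9) h8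
      _ ≤ (centralizer ({x} : Set P)).index * (Nat.card (centralizer ({x} : Set P)) * Nat.card Z) :=
        Nat.mul_le_mul_right _ h4
      _ = _ := by rw [← h7]; ring
  omega

theorem Hy.cl2 [Group.IsNilpotent P] (h : Hy P τ) (hne : _root_.commutator P ≠ ⊤) :
    ⁅_root_.commutator P, (⊤ : Subgroup P)⁆ = ⊥ := by
  set D := _root_.commutator P with hD
  set W := ⁅⁅D, (⊤ : Subgroup P)⁆, (⊤ : Subgroup P)⁆ with hW
  have hτD : D.map τ ≤ D := by
    rintro _ ⟨d, hd, rfl⟩
    simpa using mul_mem (inv_mem hd) (h.inv d)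
  have hτW : W ≤ W.comap τ := by
    rw [← map_le_iff_le_comap, hW, map_commutator, map_commutator]
    exact commutator_mono (commutator_mono hτD le_top) le_top
  have hs := QuotientGroup.mk'_surjective W
  have h1 := h.map (QuotientGroup.mk' W) hs (QuotientGroup.map W W τ hτW) fun _ => rfl
  have hWD : W ≤ D := (commutator_le_left _ _).trans (commutator_le_left _ _)
  have ht : (⊤ : Subgroup P).map (QuotientGroup.mk' W) = ⊤ := map_top_of_surjective _ hs
  have h2 := h1.c3 (fun e => hne (by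
    rw [← map_comm _ hs] at e
    have := congrArg (comap (QuotientGroup.mk' W)) e
    rwa [comap_map_eq, QuotientGroup.ker_mk', sup_eq_left.2 hWD, comap_top] at this)) (by
    rw [← map_comm _ hs, ← ht, ← map_commutator, ← map_commutator, Subgroup.map_eq_bot_iff, QuotientGroup.ker_mk'])
  rw [← map_comm _ hs, ← ht, ← map_commutator, Subgroup.map_eq_bot_iff, QuotientGroup.ker_mk'] at h2
  by_contra hc
  have : Group.IsNilpotent (⊤ : Subgroup P) := inferInstance
  exact (PGroup.commutator_lt_of_nilpotent (S := ⊤) le_top (le_normalizer_of_normal) hc).not_ge h2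

/-- an element outside the derived group whose `p`-th power is trivial -/
theorem Hy.exists_pow [Group.IsNilpotent P] (h : Hy P τ) (hne : _root_.commutator P ≠ ⊤) {p : ℕ}
    (hp : ∀ x : P, x ^ p ∈ _root_.commutator P) : ∃ x, x ∉ _root_.commutator P ∧ x ^ p = 1 := by
  obtain ⟨x₁, hx₁⟩ : ∃ x, x ∉ _root_.commutator P := by
    by_contra hc
    push Not at hc
    exact hne (eq_top_iff.2 fun x _ => hc x)
  obtain ⟨x, hx, hxx⟩ := h.rep x₁
  refine ⟨x, fun hx' => hx₁ (by simpa using mul_mem hx' hxx), eq_one_of_sq h.odd ?_⟩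
  have := h.fix hne (hp x)
  rw [h.cl2 hne, mem_bot, map_pow, hx, inv_pow, ← mul_inv_rev, inv_eq_one] at this
  exact this

end Cfsg.Lib.Cam
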